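import Cfsg.Agent.H183.RC.Sem
import Cfsg.Agent.H106.RC.Cover

/-!
# S3510, row C, task F: commuting families of semilinear maps on a two-dimensional space

If some linear member has an eigenvector, then either all the members fix a common line, or there is an involution
which is not linear and swaps two lines fixed by all the others.
-/

set_option autoImplicit false

open Cfsg Matrix Cfsg.Agent.H106.RC

namespace Cfsg.Agent.H183.RC

section T

variable {F : Type*} [Field F]

/-- the semilinear map of `(A, σ)` -/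
def TT (A : GL (Fin 2) F) (σ : F ≃+* F) (v : Fin 2 → F) : Fin 2 → F :=
  (A : Matrix (Fin 2) (Fin 2) F) *ᵥ (fun i => σ (v i))

variable {A B : GL (Fin 2) F} {σ τ : F ≃+* F}

theorem TT_smul (c : F) (v : Fin 2 → F) : TT A σ (c • v) = σ c • TT A σ v := by
  unfold TT
  rw [← Matrix.mulVec_smul]
  congr 1
  funext i
  simp

theorem TT_add (v w : Fin 2 → F) : TT A σ (v + w) = TT A σ v + TT A σ w := by
  unfold TT
  rw [← Matrix.mulVec_add]
  congr 1
  funext i
  simp

theorem TT_zero : TT A σ 0 = 0 := by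
  have := TT_smul (A := A) (σ := σ) 0 0
  simpa using this

theorem TT_eq_zero {v : Fin 2 → F} (h : TT A σ v = 0) : v = 0 := by
  unfold TT at h
  have h1 : ((A⁻¹ : GL (Fin 2) F) : Matrix (Fin 2) (Fin 2) F) *ᵥ
      ((A : Matrix (Fin 2) (Fin 2) F) *ᵥ (fun i => σ (v i))) = 0 := by rw [h, Matrix.mulVec_zero]
  rw [Matrix.mulVec_mulVec, ← Units.val_mul, inv_mul_cancel, Units.val_one, Matrix.one_mulVec] at h1
  funext i
  have h2 := congrFun h1 i
  simpa using h2

theorem TT_comp (v : Fin 2 → F) : TT A σ (TT B τ v) = TT (A * gmap σ B) (σ * τ) v := by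
  unfold TT
  rw [Units.val_mul, ← Matrix.mulVec_mulVec]
  congr 1
  funext i
  have h1 : σ (((B : Matrix (Fin 2) (Fin 2) F) *ᵥ fun i => τ (v i)) i) =
      σ ((B : Matrix (Fin 2) (Fin 2) F) i 0 * τ (v 0) + (B : Matrix (Fin 2) (Fin 2) F) i 1 * τ (v 1)) := by
    simp [Matrix.mulVec, dotProduct, Fin.sum_univ_two]
  have h2 : ((gmap σ B : GL (Fin 2) F) : Matrix (Fin 2) (Fin 2) F) = (B : Matrix (Fin 2) (Fin 2) F).map σ := rfl
  rw [h1, h2]
  simp [Matrix.mulVec, dotProduct, Fin.sum_univ_two, map_add, map_mul]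

theorem TT_scal {c : F} (hA : (A : Matrix (Fin 2) (Fin 2) F) = c • (1 : Matrix (Fin 2) (Fin 2) F))
    (v : Fin 2 → F) : TT A 1 v = c • v := by
  unfold TT
  rw [hA, Matrix.smul_mulVec, Matrix.one_mulVec]
  rfl

theorem TT_congr {A' : GL (Fin 2) F} {c : F}
    (hA : (A' : Matrix (Fin 2) (Fin 2) F) = c • (A : Matrix (Fin 2) (Fin 2) F)) (v : Fin 2 → F) :
    TT A' σ v = c • TT A σ v := by
  unfold TT
  rw [hA, Matrix.smul_mulVec]

/-- the matrix of a linear map which is scalar on a basis -/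
theorem scalar_of_basis {v w : Fin 2 → F} (hvw : LinearIndependent F ![v, w]) {M : Matrix (Fin 2) (Fin 2) F} {c : F}
    (hv : M *ᵥ v = c • v) (hw : M *ᵥ w = c • w) : M = c • (1 : Matrix (Fin 2) (Fin 2) F) := by
  have hsp : Submodule.span F (Set.range ![v, w]) = ⊤ := by
    apply hvw.span_eq_top_of_card_eq_finrank'
    simp
  have h1 : Matrix.toLin' M = c • (LinearMap.id : (Fin 2 → F) →ₗ[F] (Fin 2 → F)) := by
    apply LinearMap.ext_on hsp
    rintro _ ⟨i, rfl⟩
    fin_cases i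
    · simpa using hv
    · simpa using hw
  apply Matrix.toLin'.injective
  rw [h1, map_smul, Matrix.toLin'_one]

end T

section main

variable {G F : Type*} [Group G] [Field F] {N : Subgroup G}

/-- the powers of a member -/
theorem exists_iter (hN : N.Normal) {e : N ≃* PS F} {g : G} {A : GL (Fin 2) F} {σ : F ≃+* F} (h : Acts e g A σ)
    (n : ℕ) : ∃ B : GL (Fin 2) F, Acts e (g ^ n) B (σ ^ n) ∧ ∀ v, (TT A σ)^[n] v = TT B (σ ^ n) v := by
  induction n with
  | zero =>
    refine ⟨1, ?_, fun v => ?_⟩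
    · rw [pow_zero, pow_zero]; exact acts_one e
    · rw [pow_zero, TT_scal (c := 1) (by simp)]
      simp
  | succ n ih =>
    obtain ⟨B, hB, hv⟩ := ih
    refine ⟨A * gmap σ B, ?_, fun v => ?_⟩
    · rw [pow_succ', pow_succ']
      exact acts_mul hN h hB
    · rw [Function.iterate_succ', Function.comp_apply, hv, TT_comp, pow_succ']

/-- `x ^ r = 1` : the `r`-th iterate is scalar -/
theorem iter_scal [Finite F] (hN : N.Normal) {e : N ≃* PS F} (h4 : 4 ≤ Nat.card F) {g : G} {A : GL (Fin 2) F} {σ : F ≃+* F}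
    (h : Acts e g A σ) {n : ℕ} (hn : g ^ n = 1) : ∃ c : F, c ≠ 0 ∧ ∀ v, (TT A σ)^[n] v = c • v := by
  obtain ⟨B, hB, hv⟩ := exists_iter hN h n
  rw [hn] at hB
  obtain ⟨h1, c, hc, h2⟩ := acts_uniq hN h4 (acts_one e) hB
  refine ⟨c, hc, fun v => ?_⟩
  rw [hv, ← h1]
  exact TT_scal (by rw [h2]; simp) v

/-- the iterates of a map swapping two lines -/
theorem iter_swap {A : GL (Fin 2) F} {σ : F ≃+* F} {v w : Fin 2 → F} {c d : F} (hc : c ≠ 0) (hd : d ≠ 0)
    (hv : TT A σ v = c • w) (hw : TT A σ w = d • v) (n : ℕ) :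
    (∃ a : F, a ≠ 0 ∧ (TT A σ)^[2 * n] v = a • v) ∧ ∃ a : F, a ≠ 0 ∧ (TT A σ)^[2 * n + 1] v = a • w := by
  induction n with
  | zero =>
    refine ⟨⟨1, one_ne_zero, by simp⟩, ⟨c, hc, by simpa using hv⟩⟩
  | succ n ih =>
    obtain ⟨-, a, ha, h1⟩ := ih
    have h2 : (TT A σ)^[2 * (n + 1)] v = (σ a * d) • v := by
      have : 2 * (n + 1) = (2 * n + 1) + 1 := by ring
      rw [this, Function.iterate_succ', Function.comp_apply, h1, TT_smul, hw, smul_smul]
    have h3 : σ a * d ≠ 0 := mul_ne_zero ((map_ne_zero σ).2 ha) hd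
    refine ⟨⟨_, h3, h2⟩, σ (σ a * d) * c, mul_ne_zero ((map_ne_zero σ).2 h3) hc, ?_⟩
    rw [Function.iterate_succ', Function.comp_apply, h2, TT_smul, hv, smul_smul]

/-- classification of the commuting families -/
theorem classify {G F ι : Type*} [Group G] [Field F] [Finite F] {N : Subgroup G} (hN : N.Normal)
    (hc : Subgroup.centralizer (N : Set G) = ⊥) (e : N ≃* PS F) (h4 : 4 ≤ Nat.card F)
    (x : ι → G) (r : ι → ℕ) (h : PF x r) (A : ι → GL (Fin 2) F) (σ : ι → F ≃+* F)
    (hA : ∀ i, Acts e (x i) (A i) (σ i)) :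
    (∃ v : Fin 2 → F, v ≠ 0 ∧ ∀ i, FixL (A i) (σ i) v) ∨
    (∀ i, σ i = 1 → NoEig (A i)) ∨
    ∃ k, σ k ≠ 1 ∧ r k = 2 ∧ ∃ v w : Fin 2 → F, LinearIndependent F ![v, w] ∧
      (∀ i, i ≠ k → FixL (A i) (σ i) v ∧ FixL (A i) (σ i) w) ∧
      (∃ c : F, (A k : Matrix (Fin 2) (Fin 2) F) *ᵥ (fun i => σ k (v i)) = c • w) ∧
      (∃ c : F, (A k : Matrix (Fin 2) (Fin 2) F) *ᵥ (fun i => σ k (w i)) = c • v) := by
  classical
  by_cases hj : ∀ i, σ i = 1 → NoEig (A i)
  · exact Or.inr (Or.inl hj)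
  push Not at hj
  obtain ⟨j, hj1, hj2⟩ := hj
  unfold NoEig at hj2
  push Not at hj2
  obtain ⟨α, v, hv0, hv⟩ := hj2
  have h1ap : ∀ a : F, (1 : F ≃+* F) a = a := fun _ => rfl
  -- commutation
  have hcomm : ∀ i, ∃ c : F, c ≠ 0 ∧ ∀ u, TT (A j) 1 (TT (A i) (σ i) u) = c • TT (A i) (σ i) (TT (A j) 1 u) := by
    intro i
    obtain ⟨h1, c, hc0, h2⟩ := acts_comm hN h4 (hA i) (hA j) (h.comm i j)
    refine ⟨c, hc0, fun u => ?_⟩
    have h3 := TT_comp (A := A j) (σ := σ j) (B := A i) (τ := σ i) u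
    have h4 := TT_comp (A := A i) (σ := σ i) (B := A j) (τ := σ j) u
    rw [hj1] at h1 h3 h4 h2
    rw [h3, h4, TT_congr h2, h1]
  have hTv : TT (A j) 1 v = α • v := hv
  have hAj : Acts e (x j) (A j) 1 := hj1 ▸ hA j
  -- images of eigenvectors are eigenvectors
  have himg : ∀ i {u : Fin 2 → F} {β : F}, TT (A j) 1 u = β • u →
      ∃ γ : F, TT (A j) 1 (TT (A i) (σ i) u) = γ • TT (A i) (σ i) u := by
    intro i u β hu
    obtain ⟨c, -, h1⟩ := hcomm i
    refine ⟨c * σ i β, ?_⟩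
    rw [h1, hu, TT_smul, smul_smul]
  by_cases h1 : ∀ u : Fin 2 → F, ∀ β : F, TT (A j) 1 u = β • u → ∃ a : F, u = a • v
  · -- one eigenline
    left
    refine ⟨v, hv0, fun i => ?_⟩
    obtain ⟨γ, hγ⟩ := himg i hTv
    obtain ⟨a, ha⟩ := h1 _ _ hγ
    exact ⟨a, ha⟩
  push Not at h1
  obtain ⟨w, β, hw, hwv⟩ := h1
  have hvw : LinearIndependent F ![v, w] := by
    rw [LinearIndependent.pair_iff' hv0]
    intro a ha
    exact hwv a ha.symm
  have hw0 : w ≠ 0 := by
    rintro rfl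
    exact hwv 0 (by simp)
  have hindv : ∀ a b : F, a • v = b • w → a = 0 ∧ b = 0 := by
    intro a b hab
    have h2 := LinearIndependent.pair_iff.1 hvw a (-b) (by rw [hab]; simp)
    exact ⟨h2.1, by simpa using h2.2⟩
  have hαβ : α ≠ β := by
    rintro rfl
    exact h.ne j (acts_triv hN hc hAj α (scalar_of_basis hvw hv hw))
  -- eigenvectors
  have heig : ∀ (u : Fin 2 → F) (γ : F), TT (A j) 1 u = γ • u → (∃ a : F, u = a • v) ∨ ∃ a : F, u = a • w := by
    intro u γ hu
    have hsp : Submodule.span F (Set.range ![v, w]) = ⊤ := by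
      apply hvw.span_eq_top_of_card_eq_finrank'
      simp
    have hu' : u ∈ Submodule.span F (Set.range ![v, w]) := by rw [hsp]; trivial
    rw [Matrix.range_cons, Matrix.range_cons, Matrix.range_empty, Set.union_empty, Set.singleton_union,
      Submodule.mem_span_pair] at hu'
    obtain ⟨a, b, rfl⟩ := hu'
    rw [TT_add, TT_smul, TT_smul, hTv, hw] at hu
    have h2 : (a * α - γ * a) • v = (γ * b - b * β) • w := by
      have h3 : (a * α - γ * a) • v - (γ * b - b * β) • w =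
          (((1 : F ≃+* F) a) • α • v + ((1 : F ≃+* F) b) • β • w) - γ • (a • v + b • w) := by
        simp only [h1ap]
        module
      rw [hu, sub_self] at h3
      exact sub_eq_zero.1 h3
    obtain ⟨h3, h5⟩ := hindv _ _ h2
    by_cases ha : a = 0
    · right; exact ⟨b, by rw [ha]; simp⟩
    · left
      have h6 : α = γ := by
        have : a * (α - γ) = 0 := by linear_combination h3
        exact sub_eq_zero.1 ((mul_eq_zero.1 this).resolve_left ha)
      have h7 : b = 0 := by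
        have : b * (α - β) = 0 := by linear_combination h5 + b * h6
        exact (mul_eq_zero.1 this).resolve_right (sub_ne_zero.2 hαβ)
      exact ⟨a, by rw [h7]; simp⟩
  -- images of dependent vectors
  have hdep : ∀ i {u u' t : Fin 2 → F} {a b : F}, LinearIndependent F ![u, u'] → TT (A i) (σ i) u = a • t →
      TT (A i) (σ i) u' = b • t → False := by
    intro i u u' t a b hli hu hu'
    have h2 : TT (A i) (σ i) (((σ i).symm b) • u + (-(σ i).symm a) • u') = 0 := by
      rw [TT_add, TT_smul, TT_smul, hu, hu', map_neg, RingEquiv.apply_symm_apply, RingEquiv.apply_symm_apply,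
        smul_smul, smul_smul, ← add_smul]
      have : b * a + -a * b = 0 := by ring
      rw [this, zero_smul]
    have h3 := LinearIndependent.pair_iff.1 hli _ _ (TT_eq_zero h2)
    have h6 : a = 0 := by simpa using h3.2
    have h7 : TT (A i) (σ i) u = 0 := by rw [hu, h6, zero_smul]
    have h8 := TT_eq_zero h7
    exact (hli.ne_zero 0) h8
  have hwv' : LinearIndependent F ![w, v] := by
    rw [LinearIndependent.pair_iff' hw0]
    intro a ha
    by_cases ha0 : a = 0
    · rw [ha0, zero_smul] at ha; exact hv0 ha.symm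
    · exact hwv a⁻¹ (by rw [← ha, smul_smul, inv_mul_cancel₀ ha0, one_smul])
  -- every map fixes both lines or swaps them
  have hdich : ∀ i, ((∃ a : F, TT (A i) (σ i) v = a • v) ∧ ∃ a : F, TT (A i) (σ i) w = a • w) ∨
      ((∃ a : F, a ≠ 0 ∧ TT (A i) (σ i) v = a • w) ∧ ∃ a : F, a ≠ 0 ∧ TT (A i) (σ i) w = a • v) := by
    intro i
    obtain ⟨γ, hγ⟩ := himg i hTv
    obtain ⟨δ, hδ⟩ := himg i hw
    have hne : ∀ {u t : Fin 2 → F} {a : F}, u ≠ 0 → TT (A i) (σ i) u = a • t → a ≠ 0 := by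
      intro u t a hu ht ha
      rw [ha, zero_smul] at ht
      exact hu (TT_eq_zero ht)
    rcases heig _ _ hγ with ⟨a, ha⟩ | ⟨a, ha⟩ <;> rcases heig _ _ hδ with ⟨b, hb⟩ | ⟨b, hb⟩
    · exact (hdep i hvw ha hb).elim
    · exact Or.inl ⟨⟨a, ha⟩, ⟨b, hb⟩⟩
    · exact Or.inr ⟨⟨a, hne hv0 ha, ha⟩, ⟨b, hne hw0 hb, hb⟩⟩
    · exact (hdep i hvw ha hb).elim
  by_cases hall : ∀ i, ∃ a : F, TT (A i) (σ i) v = a • v
  · exact Or.inl ⟨v, hv0, hall⟩
  push Not at hall
  obtain ⟨k, hk⟩ := hall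
  -- a swapping member has order two
  have hodd : ∀ i, (∀ a : F, TT (A i) (σ i) v ≠ a • v) → r i = 2 := by
    intro i hi
    rcases hdich i with ⟨⟨a, ha⟩, -⟩ | ⟨⟨a, ha0, ha⟩, b, hb0, hb⟩
    · exact (hi a ha).elim
    rcases (h.prime i).eq_two_or_odd' with h2 | h2
    · exact h2
    · exfalso
      obtain ⟨m, hm⟩ := h2
      obtain ⟨c, hc0, h3⟩ := iter_scal hN h4 (hA i) (h.pow i)
      obtain ⟨d, hd0, h5⟩ := (iter_swap ha0 hb0 ha hb m).2
      have h6 := h3 v
      rw [hm, h5] at h6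
      exact hd0 (hindv _ _ h6.symm).2
  have hrk := hodd k hk
  right; right
  rcases hdich k with ⟨⟨a, ha⟩, -⟩ | ⟨⟨a, ha0, ha⟩, b, hb0, hb⟩
  · exact (hk a ha).elim
  refine ⟨k, ?_, hrk, v, w, hvw, fun i hi => ?_, ⟨a, ha⟩, ⟨b, hb⟩⟩
  · -- the swapping member is not linear
    intro hσk
    obtain ⟨c, hc0, h2⟩ := hcomm k
    rw [hσk] at ha hb h2
    -- on `v`
    have h3 := h2 v
    rw [ha, hTv, TT_smul, hw, TT_smul, ha] at h3
    have h5 := h2 w
    rw [hb, hw, TT_smul, hTv, TT_smul, hb] at h5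
    simp only [h1ap] at h3 h5
    have h6 : β = c * α := by
      have : (a * β) • w = (c * (α * a)) • w := by
        rw [mul_smul, h3, mul_smul, mul_smul]
      have h7 := smul_left_injective F hw0 this
      have h8 : a * (β - c * α) = 0 := by linear_combination h7
      exact sub_eq_zero.1 ((mul_eq_zero.1 h8).resolve_left ha0)
    have h7 : α = c * β := by
      have : (b * α) • v = (c * (β * b)) • v := by
        rw [mul_smul, h5, mul_smul, mul_smul]
      have h7 := smul_left_injective F hv0 this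
      have h8 : b * (α - c * β) = 0 := by linear_combination h7
      exact sub_eq_zero.1 ((mul_eq_zero.1 h8).resolve_left hb0)
    have h8 : α ^ 2 = β ^ 2 := by
      linear_combination α * h7 - β * h6
    -- `A j ^ 2` is scalar
    have h9 : x j ^ 2 = 1 := by
      refine acts_triv hN hc (acts_pow hN hAj 2) (α ^ 2) (scalar_of_basis hvw ?_ ?_)
      · rw [Units.val_pow_eq_pow_val, sq, ← Matrix.mulVec_mulVec]
        have : (A j : Matrix (Fin 2) (Fin 2) F) *ᵥ v = α • v := hv
        rw [this, Matrix.mulVec_smul, this, smul_smul, sq]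
      · rw [Units.val_pow_eq_pow_val, sq, ← Matrix.mulVec_mulVec]
        have : (A j : Matrix (Fin 2) (Fin 2) F) *ᵥ w = β • w := hw
        rw [this, Matrix.mulVec_smul, this, smul_smul, h8, sq]
    have h10 : r j = 2 := by
      have : Fact (r j).Prime := ⟨h.prime j⟩
      have h11 : orderOf (x j) = r j := orderOf_eq_prime (h.pow j) (h.ne j)
      have h12 : orderOf (x j) ∣ 2 := orderOf_dvd_of_pow_eq_one h9
      rw [h11] at h12
      exact (Nat.prime_dvd_prime_iff_eq (h.prime j) Nat.prime_two).1 h12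
    have h13 : j = k := h.inj (h10.trans hrk.symm)
    subst h13
    rw [hTv] at ha
    exact hk α (by rw [hσk]; exact hTv)
  · by_cases h2 : ∃ a : F, TT (A i) (σ i) v = a • v
    · rcases hdich i with h3 | ⟨⟨c, hc0, h3⟩, -⟩
      · exact ⟨h3.1, h3.2⟩
      · exfalso
        obtain ⟨d, hd⟩ := h2
        rw [hd] at h3
        exact hc0 (hindv _ _ h3).2
    · push Not at h2
      exact (hi (h.inj ((hodd i h2).trans hrk.symm))).elim

end main

end Cfsg.Agent.H183.RC
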